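import Cfsg.Agent.R2.F4M.Base

/-!
# The statement `Full F` (helper20)

`Full F` : the stabilizer of the unit in `Zgrp F` is `F₄(F)`. (To be proved by the owner of FULL; hypothesis elsewhere.)
-/

set_option autoImplicit false

namespace Cfsg.Agent.R2.F4P

open Cfsg Cfsg.Lie Module
open Cfsg.Agent.ChevalleyStructure.E6Min.Tables Cfsg.Agent.ChevalleyStructure.E6Min.Basic
open Cfsg.Agent.H952.F4
open Cfsg.Agent.H163.E6 (V V')
open Cfsg.Agent.R2.F4M

/-- the stabilizer of the unit in `Zgrp F` is `F₄(F)` -/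
def Full (F : Type*) [Field F] : Prop := ∀ z : ↥(Zgrp F), V F z (u0 F) = u0 F → ∃ g : ↥(chevF4.group F), zt F g = z

end Cfsg.Agent.R2.F4P
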