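import Cfsg.Agent.R2.F4P.Zx2
import Cfsg.Agent.R2.F4N.Full

/-!
# S5931: the group `Z_x` for NOFIX (helper20)
-/

set_option autoImplicit false

namespace Cfsg.Agent.R2.F4P

open Cfsg Cfsg.Lie Module
open Cfsg.Agent.ChevalleyStructure.E6Min.Basic
open Cfsg.Agent.H952.F4 Cfsg.Agent.H952.F4.Jord
open Cfsg.Agent.R2.F4M Cfsg.Agent.R2.GEO

universe u

variable {F : Type u} [Field F]

theorem full' [Fintype F] : Full F := fun _ hz => Cfsg.Agent.R2.F4N.full hz

/-- the statement used for NOFIX -/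
def Zp (F : Type u) [Field F] (p : ℕ) : Prop := ∀ x : I27 → F, x ≠ 0 → sh x = 0 → tr1 x = 0 →
  ∃ B : Subgroup ↥(chevF4.group F), IsPGroup p ↥B ∧ (∀ g, Jr F g x = x → ∀ z ∈ B, g * z * g⁻¹ ∈ B) ∧
    ∀ y : I27 → F, sh y = 0 → tr1 y = 0 → cr x y = 0 → ∃ z ∈ B, z ≠ 1 ∧ Jr F z x = x ∧ Jr F z y = y

theorem zp [Fintype F] (p : ℕ) [Fact p.Prime] [CharP F p] : Zp F p := by
  classical
  intro x h0 hx htx
  refine ⟨Zx x h0 hx htx, ?_, fun g hg z hz => Zx_conj hg hz, fun y _ hty hxy => ?_⟩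
  · intro z
    exact ⟨1, Subtype.ext (by rw [pow_one]; exact Zx_pow p z.2)⟩
  · have hxx : cr x x = 0 := by rw [cr_self, hx, smul_zero]
    obtain ⟨z, hz, hz1, hzf⟩ := exists_fix full' h0 hx htx (U := Submodule.span F {x, y})
      (Submodule.subset_span (Or.inl rfl)) (fun w hw => by
        obtain ⟨c, d, rfl⟩ := Submodule.mem_span_pair.1 hw
        refine ⟨?_, 0, ?_⟩
        · rw [tr1_add, tr1_smul, tr1_smul, htx, hty]
          ring
        · rw [cr_add_right, cr_smul_right, cr_smul_right, hxx, hxy, smul_zero, smul_zero, add_zero, zero_smul]) (by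
        have h1 := finrank_span_le_card (R := F) ({x, y} : Set (I27 → F))
        have h2 : ({x, y} : Set (I27 → F)).toFinset.card ≤ 2 := by
          rw [Set.toFinset_insert, Set.toFinset_singleton]
          exact Finset.card_le_two
        omega)
    exact ⟨z, hz, hz1, hzf _ (Submodule.subset_span (Or.inl rfl)), hzf _ (Submodule.subset_span (Or.inr rfl))⟩

end Cfsg.Agent.R2.F4P
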