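import Cfsg.Agent.R2.F4P.Id
import Cfsg.Agent.R2.F4P.Full

/-!
# The automorphisms `z_{x,y}` of the 27-dimensional algebra (helper20)

`x` white (`x^# = 0`, trace zero), `y` of trace zero, `x × y = 0`:
`z_{x,y}(v) = v + x × (y × v) - T(x,v) y + s(y) T(x,v) x` is an automorphism.
-/

set_option autoImplicit false
set_option linter.unusedSimpArgs false
set_option linter.unusedSectionVars false

namespace Cfsg.Agent.R2.F4P

open Cfsg Cfsg.Lie Module
open Cfsg.Agent.ChevalleyStructure.E6Min.Tables Cfsg.Agent.ChevalleyStructure.E6Min.Basic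
open Cfsg.Agent.H952.F4 Cfsg.Agent.H952.F4.Jord

universe u

section ring

variable {R : Type u} [CommRing R]

theorem sh_zero' : sh (0 : I27 → R) = 0 := by
  have := sh_smul (0 : R) (0 : I27 → R)
  simpa using this

theorem tf_zero_left' (y : I27 → R) : tf (0 : I27 → R) y = 0 := by
  have := tf_smul_left (0 : R) (0 : I27 → R) y
  simpa using this

theorem tf_zero_right' (y : I27 → R) : tf y (0 : I27 → R) = 0 := by rw [tf_comm, tf_zero_left']

theorem cr_zero_left' (y : I27 → R) : cr (0 : I27 → R) y = 0 := by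
  have := cr_smul_left (0 : R) (0 : I27 → R) y
  simpa using this

theorem cr_zero_right' (y : I27 → R) : cr y (0 : I27 → R) = 0 := by rw [cr_comm, cr_zero_left']

theorem tr1_zero' : tr1 (0 : I27 → R) = 0 := by
  have := tr1_smul (0 : R) (0 : I27 → R)
  simpa using this

theorem three_N_cr (x y : I27 → R) : 3 * cubicT (cr x y) =
    3 * (tf (sh x) y * tf x (sh y) - cubicT x * cubicT y) := by
  have h1 := tf_sh_self (cr x y)
  have h2 := sh_cr x y
  have h3 : sh (cr x y) = tf (sh x) y • y + tf x (sh y) • x + (-1 : R) • cr (sh x) (sh y) := by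
    rw [← h2]
    module
  have h4 : tf y (cr x y) = 2 * tf x (sh y) := by
    rw [cr_comm, ← tf_cr, cr_self, tf_smul_left, tf_comm]
  have h5 : tf x (cr x y) = 2 * tf (sh x) y := by
    rw [← tf_cr, cr_self, tf_smul_left]
  have h6 : tf (cr (sh x) (sh y)) (cr x y) = cubicT x * (3 * cubicT y) + tf (sh x) y * tf x (sh y) := by
    rw [cr_comm (sh x), tf_cr, cr_sh_cr, tf_add_right, tf_smul_right, tf_smul_right, tf_sh_self, tf_comm (sh y) x]
  rw [h3, tf_add_left, tf_add_left, tf_smul_left, tf_smul_left, tf_smul_left, h4, h5, h6] at h1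
  linear_combination -h1

theorem cr_map' {S : Type*} {T : Type*} [CommRing S] [CommRing T] (f : S →+* T) (x y : I27 → S) :
    cr (fun i => f (x i)) (fun i => f (y i)) = fun i => f (cr x y i) := by
  have : (fun i => f (x i)) + (fun i => f (y i)) = fun i => f ((x + y) i) := by
    funext i
    simp
  funext i
  unfold cr
  rw [this, H163.E6.Act.sh_map, H163.E6.Act.sh_map, H163.E6.Act.sh_map]
  simp

/-- `N(x × y) = T(x^#, y) T(x, y^#) - N(x) N(y)` -/
theorem N_cr (x y : I27 → R) : cubicT (cr x y) = tf (sh x) y * tf x (sh y) - cubicT x * cubicT y := by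
  set X : I27 → MvPolynomial (I27 ⊕ I27) ℤ := fun i => MvPolynomial.X (Sum.inl i) with hXd
  set Y : I27 → MvPolynomial (I27 ⊕ I27) ℤ := fun i => MvPolynomial.X (Sum.inr i) with hYd
  have h : cubicT (cr X Y) = tf (sh X) Y * tf X (sh Y) - cubicT X * cubicT Y := by
    have h3 : (3 : MvPolynomial (I27 ⊕ I27) ℤ) ≠ 0 := by
      have : (3 : MvPolynomial (I27 ⊕ I27) ℤ) = MvPolynomial.C 3 := by simp
      rw [this]
      exact (MvPolynomial.C_ne_zero (σ := I27 ⊕ I27)).2 (by norm_num)
    exact mul_left_cancel₀ h3 (three_N_cr X Y)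
  set f : MvPolynomial (I27 ⊕ I27) ℤ →+* R := MvPolynomial.eval₂Hom (Int.castRingHom R) (Sum.elim x y) with hf
  have hX : (fun i => f (X i)) = x := by
    funext i
    rw [hXd, hf, MvPolynomial.eval₂Hom_X', Sum.elim_inl]
  have hY : (fun i => f (Y i)) = y := by
    funext i
    rw [hYd, hf, MvPolynomial.eval₂Hom_X', Sum.elim_inr]
  have h1 := congrArg f h
  rw [map_sub, map_mul, map_mul, ← H163.E6.Act.cubicT_map, ← H163.E6.Act.cubicT_map, ← H163.E6.Act.cubicT_map,
    ← H163.E6.Act.tf_map, ← H163.E6.Act.tf_map, ← cr_map', ← H163.E6.Act.sh_map, ← H163.E6.Act.sh_map, hX, hY] at h1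
  exact h1

/-- the relations between `x` and `y` -/
structure Wh (x y : I27 → R) : Prop where
  sx : sh x = 0
  tx : tr1 x = 0
  Nx : cubicT x = 0
  ty : tr1 y = 0
  xy : cr x y = 0
  D : tf (sh y) x = 0
  Ny : cubicT y = 0
  T : tf x y = 0
  xx : tf x x = 0
  xs : cr x (sh y) = (-tr1 (sh y)) • x

/-- the automorphism `z_{x,y}` -/
def zf (x y v : I27 → R) : I27 → R := v + cr x (cr y v) - tf x v • y + (tr1 (sh y) * tf x v) • x

theorem Wh.yx {x y : I27 → R} (h : Wh x y) : cr y x = 0 := by rw [cr_comm, h.xy]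

theorem Wh.crx {x y : I27 → R} (h : Wh x y) (w : I27 → R) : cr x (cr x w) = tf x w • x := by
  have h1 := cr_cr_self x w
  rw [h.sx, cr_zero_right', h.tx, tf_zero_left', tr1_zero', tr1_cr, h.tx] at h1
  linear_combination (norm := module) h1

theorem Wh.crxy {x y : I27 → R} (h : Wh x y) (w : I27 → R) :
    cr y (cr x w) = tf x w • y + tf y w • x - cr x (cr y w) := by
  have h1 := cr3 x y w
  rw [h.xy, cr_zero_right', h.tx, h.ty, tf_zero_left', tr1_zero', tr1_cr, tr1_cr, h.tx, h.ty] at h1
  linear_combination (norm := module) h1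

theorem Wh.sh_cr {x y : I27 → R} (h : Wh x y) (w : I27 → R) : sh (cr x w) = tf x (sh w) • x := by
  have h1 := Jord.sh_cr x w
  rw [h.sx, cr_zero_left', tf_zero_left'] at h1
  linear_combination (norm := module) h1

theorem Wh.tfb {x y : I27 → R} (h : Wh x y) (v : I27 → R) : tf x (cr y v) = 0 := by
  rw [← tf_cr, h.xy, tf_zero_left']

/-- `T(x × v, v × y^#) = T(x, v) T(v, y^#)` -/
theorem Wh.tfw {x y : I27 → R} (h : Wh x y) (v : I27 → R) :
    tf (cr v x) (cr v (sh y)) = tf x v * tf v (sh y) := by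
  have h1 := congrArg tr1 (cr_cr v x (sh y))
  rw [h.xs] at h1
  simp only [tr1_add, tr1_smul, tr1_cr, h.tx, cr_smul_right, tf_smul_right] at h1
  rw [tf_comm v x] at h1
  linear_combination -h1

theorem Wh.tfyy {x y : I27 → R} (h : Wh x y) (v : I27 → R) :
    tf v (cr x (cr y (cr y v))) = -2 * tr1 (sh y) * tf (sh v) x := by
  have h1 := cr_cr_self y v
  have h2 : cr y (cr y v) = (tr1 v * tr1 (sh y) - tf (sh y) v) • u0 R + (-1 : R) • cr v (sh y) +
      (-tr1 (sh y)) • v + tf y v • y + (-tr1 v) • sh y := by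
    rw [tr1_cr, h.ty] at h1
    linear_combination (norm := module) h1
  have h3 : tf (cr v x) v = 2 * tf (sh v) x := by
    rw [tf_cr, cr_comm, ← tf_cr, cr_self, tf_smul_left]
  rw [← tf_cr, h2]
  simp only [tf_add_right, tf_smul_right]
  rw [h.tfw v, h3, tf_comm _ (u0 R), tf_u0, tr1_cr, h.tx, tf_cr v x y, h.xy, tf_zero_right', tf_cr v x (sh y), h.xs,
    tf_smul_right, tf_comm v x, tf_comm v (sh y)]
  ring

/-- **`z_{x,y}` preserves the cubic form** -/
theorem Wh.N_zf {x y : I27 → R} (h : Wh x y) (v : I27 → R) : cubicT (zf x y v) = cubicT v := by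
  set s := tr1 (sh y) with hs
  set τ := tf x v with hτ
  set b := cr y v with hb
  set p := cr x b with hp
  set q := (-τ) • y + (s * τ) • x with hq
  have hz : zf x y v = v + (p + q) := by
    rw [zf, hp, hq, hb]
    module
  have hxb : tf x b = 0 := h.tfb v
  have hshp : sh p = tf x (sh b) • x := h.sh_cr b
  have hshq : sh q = τ ^ 2 • sh y := by
    rw [hq, sh_add, sh_smul, sh_smul, h.sx, cr_smul_left, cr_smul_right, h.yx]
    module
  have hcpy : cr y p = (tf y b) • x - cr x (cr y b) := by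
    rw [hp, h.crxy b, hxb]
    module
  have hcpx : cr x p = 0 := by rw [hp, h.crx, hxb, zero_smul]
  have hcpq : cr p q = τ • cr x (cr y b) - (τ * tf y b) • x := by
    rw [hq, cr_add_right, cr_smul_right, cr_smul_right, cr_comm p x, cr_comm p y, hcpx, hcpy]
    module
  have hsb : sh b = tf (sh y) v • v + tf y (sh v) • y + (-1 : R) • cr (sh y) (sh v) := by
    have := Jord.sh_cr y v
    linear_combination (norm := module) this
  have hxsb : tf x (sh b) = τ * tf (sh y) v + s * tf (sh v) x := by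
    rw [hsb]
    simp only [tf_add_right, tf_smul_right]
    rw [← tf_cr x (sh y) (sh v), h.xs, h.T, tf_smul_left, tf_comm x (sh v)]
    ring
  have hyb : tf y b = 2 * tf (sh y) v := by rw [hb, ← tf_cr, cr_self, tf_smul_left]
  have h8 : tf v (cr x (cr y b)) = -2 * s * tf (sh v) x := h.tfyy v
  have hvp : tf (sh v) p = τ * tf (sh v) y := by
    rw [hp, ← tf_cr, cr_comm, tf_cr, hb, cr_comm y v, cr_sh_cr, tf_add_right, tf_smul_right, tf_smul_right, h.T]
    ring
  have hva : tf (sh v) (p + q) = s * τ * tf (sh v) x := by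
    rw [hq]
    simp only [tf_add_right, tf_smul_right, hvp]
    ring
  have hvs : tf v (sh (p + q)) = -(s * τ * tf (sh v) x) := by
    rw [sh_add, hshp, hshq, hcpq]
    have e : tf x (sh b) • x + τ ^ 2 • sh y + (τ • cr x (cr y b) - (τ * tf y b) • x) =
        tf x (sh b) • x + τ ^ 2 • sh y + τ • cr x (cr y b) + (-(τ * tf y b)) • x := by module
    rw [e]
    simp only [tf_add_right, tf_smul_right]
    rw [h8, hxsb, hyb, tf_comm v x, tf_comm v (sh y)]
    ring
  have hNp : cubicT p = 0 := by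
    rw [hp, N_cr, h.sx, tf_zero_left', h.Nx]
    ring
  have hNq : cubicT q = 0 := by
    rw [hq, N_add, N_smul, N_smul, h.Ny, h.Nx, sh_smul, sh_smul, h.sx, smul_zero, tf_zero_right', tf_smul_left,
      tf_smul_right, h.D]
    ring
  have hNa : cubicT (p + q) = 0 := by
    rw [N_add, hNp, hNq, hshp, hshq, hq]
    simp only [tf_add_right, tf_smul_right, tf_smul_left, h.T, h.xx]
    rw [hp, tf_cr, cr_comm b, ← tf_cr x, h.xs, tf_smul_left, hxb]
    ring
  rw [hz, N_add, hva, hvs, hNa]
  ring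

end ring

end Cfsg.Agent.R2.F4P
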