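import Cfsg.Agent.R2.F4P.Zx
import Cfsg.Agent.R2.GEO.Main
import Cfsg.Agent.R2.GEO.Rank
import Cfsg.Agent.H927.E6Der

/-!
# The group `Z_x` of a white vector `x` (helper20)

* `Wh.of` : the relations over a field;
* `exists_zx` : `z_{x,y}` is an element of `F₄(F)`, if `Full F`;
* `Zx` : the abelian group of the `z_{x,y}`; `Zx_conj`, `Zx_pow`;
* `exists_fix` : every space `U ∋ x` of dimension at most 7 in `{y ∈ J₀ : x × y ∈ F x}` is fixed pointwise by an element
  `z ≠ 1` of `Zx`.
-/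

set_option autoImplicit false
set_option linter.unusedSimpArgs false
set_option linter.unusedSectionVars false

namespace Cfsg.Agent.R2.F4P

open Cfsg Cfsg.Lie Module
open Cfsg.Agent.ChevalleyStructure.E6Min.Tables Cfsg.Agent.ChevalleyStructure.E6Min.Basic
open Cfsg.Agent.H952.F4 Cfsg.Agent.H952.F4.Jord Cfsg.Agent.H952.F4.FixV
open Cfsg.Agent.H163.E6 (V V')
open Cfsg.Agent.R2.F4M Cfsg.Agent.R2.GEO
open Cfsg.Agent.H65.E6Full (mem_Zgrp_iff IsFull)
open scoped Matrix

universe u

section ring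

variable {R : Type u} [CommRing R]

theorem zf_add (x y v w : I27 → R) : zf x y (v + w) = zf x y v + zf x y w := by
  simp only [zf, cr_add_right, tf_add_right]
  module

theorem zf_smul (x y : I27 → R) (c : R) (v : I27 → R) : zf x y (c • v) = c • zf x y v := by
  simp only [zf, cr_smul_right, tf_smul_right]
  module

theorem Wh.crz {x y v : I27 → R} (h : Wh x y) : cr x (zf x y v) = cr x v + (0 : R) • x := by
  have h1 : cr x (cr x (cr y v)) = 0 := by rw [h.crx, h.tfb, zero_smul]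
  have hxx : cr x x = 0 := by rw [cr_self, h.sx, smul_zero]
  have e : zf x y v = v + cr x (cr y v) + (-tf x v) • y + (tr1 (sh y) * tf x v) • x := by rw [zf]; module
  rw [e]
  simp only [cr_add_right, cr_smul_right, h1, h.xy, hxx]
  module

theorem Wh.tfz {x y : I27 → R} (h : Wh x y) (v : I27 → R) : tf x (zf x y v) = tf x v := by
  have hxx : cr x x = 0 := by rw [cr_self, h.sx, smul_zero]
  have h1 : tf x (cr x (cr y v)) = 0 := by rw [← tf_cr, hxx, tf_zero_left']
  have e : zf x y v = v + cr x (cr y v) + (-tf x v) • y + (tr1 (sh y) * tf x v) • x := by rw [zf]; module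
  rw [e]
  simp only [tf_add_right, tf_smul_right, h1, h.T, h.xx]
  ring

theorem Wh.cr_cr_zero {x y : I27 → R} (h : Wh x y) {y' : I27 → R} (h' : Wh x y') : cr x (cr y y') = tf y y' • x := by
  have h1 := h.crxy y'
  rw [h'.xy, cr_zero_right', h'.T] at h1
  linear_combination (norm := module) h1

/-- composition -/
theorem Wh.zf_zf {x y y' : I27 → R} (h : Wh x y) (h' : Wh x y') (v : I27 → R) :
    zf x y (zf x y' v) = zf x (y + y') v := by
  have hxx : cr x x = 0 := by rw [cr_self, h.sx, smul_zero]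
  set τ := tf x v with hτ
  have e : zf x y' v = v + cr x (cr y' v) + (-τ) • y' + (tr1 (sh y') * τ) • x := by rw [zf]; module
  have h1 : cr y (cr x (cr y' v)) = (tf y (cr y' v)) • x - cr x (cr y (cr y' v)) := by
    rw [h.crxy, h'.tfb]; module
  have h2 : cr x (cr x (cr y (cr y' v))) = 0 := by rw [h.crx, h.tfb, zero_smul]
  have h3 : cr x (cr y (zf x y' v)) = cr x (cr y v) + (-(τ * tf y y')) • x := by
    rw [e]
    simp only [cr_add_right, cr_smul_right, h.yx, cr_zero_right']
    have h4 : cr x (cr y (cr x (cr y' v))) = 0 := by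
      rw [h1, sub_eq_add_neg, ← neg_one_smul R, cr_add_right, cr_smul_right, cr_smul_right, hxx, h2]
      module
    rw [h4, h.cr_cr_zero h']
    module
  have h5 : zf x y (zf x y' v) = zf x y' v + cr x (cr y (zf x y' v)) - tf x (zf x y' v) • y +
      (tr1 (sh y) * tf x (zf x y' v)) • x := rfl
  rw [h5, h'.tfz, h3, e]
  have h6 : zf x (y + y') v = v + cr x (cr (y + y') v) - tf x v • (y + y') + (tr1 (sh (y + y')) * tf x v) • x := rfl
  rw [h6, sh_add, tr1_add, tr1_add, tr1_cr, h.ty, cr_add_left, cr_add_right, ← hτ]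
  module

theorem zf_zero (x v : I27 → R) : zf x 0 v = v := by
  simp only [zf, cr_zero_left', cr_zero_right', sh_zero', tr1_zero']
  module

end ring

section field

variable {F : Type u} [Field F]

theorem sx_N {x : I27 → F} (hx : sh x = 0) : cubicT x = 0 := by
  by_cases h0 : x = 0
  · have := N_smul (0 : F) (0 : I27 → F)
    rw [zero_smul] at this
    rw [h0, this]
    ring
  · have h1 := sh_sh x
    rw [hx, sh_zero'] at h1
    rcases smul_eq_zero.1 h1.symm with h | h
    · exact h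
    · exact absurd h h0

theorem Wh.of {x y : I27 → F} (h0 : x ≠ 0) (hx : sh x = 0) (htx : tr1 x = 0) (hty : tr1 y = 0) (hxy : cr x y = 0) :
    Wh x y := by
  have hT : tf x y = 0 := by
    have := tr1_cr x y
    rw [hxy, tr1_zero', htx] at this
    linear_combination this
  have hD : tf (sh y) x = 0 := by
    have := Jord.sh_cr x y
    rw [hxy, hx, sh_zero', cr_zero_left', tf_zero_left', zero_smul, zero_add, zero_add] at this
    rcases smul_eq_zero.1 this.symm with h | h
    · rw [tf_comm]; exact h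
    · exact absurd h h0
  have hyx : cr y x = 0 := by rw [cr_comm, hxy]
  refine ⟨hx, htx, sx_N hx, hty, hxy, hD, ?_, hT, ?_, ?_⟩
  · have := cr_sh_cr y x
    rw [hyx, cr_zero_right', hD, zero_smul, add_zero] at this
    rcases smul_eq_zero.1 this.symm with h | h
    · exact h
    · exact absurd h h0
  · have := tr1_sh x
    rw [hx, tr1_zero', htx] at this
    linear_combination this
  · have := cr_cr_self y x
    rw [hyx, cr_zero_right', htx, hty, tr1_zero', hD] at this
    linear_combination (norm := module) this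

/-- the linearized cubic form -/
theorem Wh.D_zf {x y : I27 → F} (h : Wh x y) (v w : I27 → F) : tf (sh (zf x y v)) (zf x y w) = tf (sh v) w := by
  have hc : Wh (cst x) (cst y) := by
    refine ⟨?_, ?_, ?_, ?_, ?_, ?_, ?_, ?_, ?_, ?_⟩
    · rw [cst_sh, h.sx]; funext a; simp [cst_apply]
    · rw [cst_tr1, h.tx, map_zero]
    · rw [cst_N, h.Nx, map_zero]
    · rw [cst_tr1, h.ty, map_zero]
    · rw [cst_cr, h.xy]; funext a; simp [cst_apply]
    · rw [cst_sh, cst_tf, h.D, map_zero]
    · rw [cst_N, h.Ny, map_zero]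
    · rw [cst_tf, h.T, map_zero]
    · rw [cst_tf, h.xx, map_zero]
    · rw [cst_sh, cst_cr, h.xs, cst_tr1]
      funext a
      simp only [cst_apply, Pi.smul_apply, smul_eq_mul, map_mul, map_neg]
  have hz : ∀ v : I27 → F, zf (cst x) (cst y) (cst v) = cst (zf x y v) := by
    intro v
    simp only [zf, cst_cr, cst_sh, cst_tf, cst_tr1]
    funext a
    simp only [cst_apply, Pi.add_apply, Pi.sub_apply, Pi.smul_apply, smul_eq_mul, map_add, map_sub, map_mul]
  have h1 := hc.N_zf (cst v + (Polynomial.X : Polynomial F) • cst w)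
  rw [zf_add, zf_smul, hz, hz] at h1
  simp only [N_add, sh_smul, cst_sh, cst_N, N_smul, tf_smul_right, tf_smul_left, cst_tf, h.N_zf] at h1
  have h2 := congrArg (fun q : Polynomial F => q.coeff 1) h1
  have e1 : ∀ a : F, ((Polynomial.X : Polynomial F) * Polynomial.C a).coeff 1 = a := fun a => by
    rw [show (1 : ℕ) = 0 + 1 from rfl, Polynomial.coeff_X_mul, Polynomial.coeff_C_zero]
  have e2 : ∀ a : F, ((Polynomial.X : Polynomial F) ^ 2 * Polynomial.C a).coeff 1 = 0 := fun a => by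
    rw [Polynomial.coeff_X_pow_mul', if_neg (by norm_num)]
  have e3 : ∀ a : F, ((Polynomial.X : Polynomial F) ^ 3 * Polynomial.C a).coeff 1 = 0 := fun a => by
    rw [Polynomial.coeff_X_pow_mul', if_neg (by norm_num)]
  have e4 : ∀ a : F, (Polynomial.C a).coeff 1 = 0 := fun a => by
    rw [Polynomial.coeff_C, if_neg (by norm_num)]
  simp only [Polynomial.coeff_add, e1, e2, e3, e4] at h2
  linear_combination h2

theorem Wh.neg {x y : I27 → F} (h0 : x ≠ 0) (h : Wh x y) : Wh x ((-1 : F) • y) :=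
  Wh.of h0 h.sx h.tx (by rw [tr1_smul, h.ty, mul_zero]) (by rw [cr_smul_right, h.xy, smul_zero])

/-- `z_{x,y}` as a linear automorphism -/
noncomputable def ze (x y : I27 → F) (h0 : x ≠ 0) (h : Wh x y) : (I27 → F) ≃ₗ[F] (I27 → F) where
  toFun := zf x y
  map_add' := zf_add x y
  map_smul' c v := zf_smul x y c v
  invFun := zf x ((-1 : F) • y)
  left_inv v := by
    rw [(h.neg h0).zf_zf h, show (-1 : F) • y + y = 0 by module, zf_zero]
  right_inv v := by
    rw [h.zf_zf (h.neg h0), show y + (-1 : F) • y = 0 by module, zf_zero]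

theorem zf_u0 {x y : I27 → F} (h : Wh x y) : zf x y (u0 F) = u0 F := by
  have h1 : cr y (u0 F) = (-1 : F) • y := by
    rw [cr_comm y, cr_u0, h.ty]
    module
  have h2 : tf x (u0 F) = 0 := by rw [tf_comm, tf_u0, h.tx]
  rw [zf, h1, h2, cr_smul_right, h.xy]
  module

/-- **`z_{x,y}` belongs to `F₄(F)`** -/
theorem exists_zx (hF : Full F) {x y : I27 → F} (h0 : x ≠ 0) (h : Wh x y) :
    ∃ g : ↥(chevF4.group F), ∀ v, Jr F g v = zf x y v := by
  set g0 : GL I27 F := Matrix.GeneralLinearGroup.mk'' (LinearMap.toMatrix' (ze x y h0 h : (I27 → F) →ₗ[F] (I27 → F)))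
    (by
      rw [LinearMap.det_toMatrix']
      exact LinearEquiv.isUnit_det' _) with hg0
  have hv : ∀ v, (g0 : Matrix I27 I27 F) *ᵥ v = zf x y v := by
    intro v
    change LinearMap.toMatrix' (ze x y h0 h : (I27 → F) →ₗ[F] (I27 → F)) *ᵥ v = _
    rw [LinearMap.toMatrix'_mulVec]
    rfl
  have hm : g0 ∈ Zgrp F := by
    rw [mem_Zgrp_iff]
    refine ⟨fun v => ?_, fun v w => ?_⟩
    · change cubicT ((g0 : Matrix I27 I27 F).mulVec v) = cubicT v
      rw [hv, h.N_zf]
    · rw [Cfsg.Agent.H163.E6.Der.DF_eq, Cfsg.Agent.H163.E6.Der.DF_eq, hv, hv, h.D_zf]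
  obtain ⟨g, hg⟩ := hF ⟨g0, hm⟩ (by
    change (g0 : Matrix I27 I27 F) *ᵥ u0 F = u0 F
    rw [hv, zf_u0 h])
  refine ⟨g, fun v => ?_⟩
  rw [← V_zt, hg]
  exact hv v

/-- equivariance -/
theorem zf_act (g : ↥(chevF4.group F)) (x y v : I27 → F) : zf (Jr F g x) (Jr F g y) (Jr F g v) = Jr F g (zf x y v) := by
  simp only [zf, Jr_cr, Jr_tf, Jr_sh, Jr_tr, map_add, map_sub, map_smul]

/-- the group `Z_x` -/
def Zx (x : I27 → F) (h0 : x ≠ 0) (hx : sh x = 0) (htx : tr1 x = 0) : Subgroup ↥(chevF4.group F) where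
  carrier := {g | ∃ y, tr1 y = 0 ∧ cr x y = 0 ∧ ∀ v, Jr F g v = zf x y v}
  one_mem' := ⟨0, tr1_zero', cr_zero_right' x, fun v => by rw [Jr_one, zf_zero]⟩
  mul_mem' := by
    rintro g g' ⟨y, h1, h2, h3⟩ ⟨y', h1', h2', h3'⟩
    refine ⟨y + y', by rw [tr1_add, h1, h1', add_zero], by rw [cr_add_right, h2, h2', add_zero], fun v => ?_⟩
    rw [Jr_mul, h3', h3, (Wh.of h0 hx htx h1 h2).zf_zf (Wh.of h0 hx htx h1' h2')]
  inv_mem' := by
    rintro g ⟨y, h1, h2, h3⟩
    have h := Wh.of h0 hx htx h1 h2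
    refine ⟨(-1 : F) • y, by rw [tr1_smul, h1, mul_zero], by rw [cr_smul_right, h2, smul_zero], fun v => ?_⟩
    apply Jr_inj g
    rw [Jr_apply_inv, h3, h.zf_zf (h.neg h0), show y + (-1 : F) • y = 0 by module, zf_zero]

theorem mem_Zx {x : I27 → F} {h0 : x ≠ 0} {hx : sh x = 0} {htx : tr1 x = 0} {g : ↥(chevF4.group F)} :
    g ∈ Zx x h0 hx htx ↔ ∃ y, tr1 y = 0 ∧ cr x y = 0 ∧ ∀ v, Jr F g v = zf x y v := Iff.rfl

/-- the stabilizer of `x` normalizes `Z_x` -/
theorem Zx_conj {x : I27 → F} {h0 : x ≠ 0} {hx : sh x = 0} {htx : tr1 x = 0} {g z : ↥(chevF4.group F)}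
    (hg : Jr F g x = x) (hz : z ∈ Zx x h0 hx htx) : g * z * g⁻¹ ∈ Zx x h0 hx htx := by
  obtain ⟨y, h1, h2, h3⟩ := hz
  refine ⟨Jr F g y, by rw [Jr_tr, h1], ?_, fun v => ?_⟩
  · rw [← hg, Jr_cr, h2, map_zero]
  · rw [Jr_mul, Jr_mul, h3, ← zf_act, hg, Jr_apply_inv]

/-- `Z_x` is commutative -/
theorem Zx_comm {x : I27 → F} {h0 : x ≠ 0} {hx : sh x = 0} {htx : tr1 x = 0} {g z : ↥(chevF4.group F)}
    (hg : g ∈ Zx x h0 hx htx) (hz : z ∈ Zx x h0 hx htx) : g * z = z * g := by
  obtain ⟨y, h1, h2, h3⟩ := hg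
  obtain ⟨y', h1', h2', h3'⟩ := hz
  refine Jr_faithful fun v => ?_
  rw [Jr_mul, Jr_mul, h3, h3', h3, h3', (Wh.of h0 hx htx h1 h2).zf_zf (Wh.of h0 hx htx h1' h2'),
    (Wh.of h0 hx htx h1' h2').zf_zf (Wh.of h0 hx htx h1 h2), add_comm]

/-- `Z_x` has exponent `p` -/
theorem Zx_pow {x : I27 → F} {h0 : x ≠ 0} {hx : sh x = 0} {htx : tr1 x = 0} (p : ℕ) [CharP F p]
    {z : ↥(chevF4.group F)} (hz : z ∈ Zx x h0 hx htx) : z ^ p = 1 := by
  obtain ⟨y, h1, h2, h3⟩ := hz
  have key : ∀ n : ℕ, ∀ v, Jr F (z ^ n) v = zf x ((n : F) • y) v := by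
    intro n
    induction n with
    | zero => intro v; rw [pow_zero, Jr_one, Nat.cast_zero, zero_smul, zf_zero]
    | succ n ih =>
      intro v
      have hn : Wh x ((n : F) • y) :=
        Wh.of h0 hx htx (by rw [tr1_smul, h1, mul_zero]) (by rw [cr_smul_right, h2, smul_zero])
      rw [pow_succ, Jr_mul, h3, ih, hn.zf_zf (Wh.of h0 hx htx h1 h2)]
      congr 1
      push_cast
      module
  refine Jr_faithful fun v => ?_
  rw [key, Jr_one, CharP.cast_eq_zero, zero_smul, zf_zero]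

/-- the action on the vectors `v` with `x × v ∈ F x` -/
theorem Wh.zf_eq {x y : I27 → F} (h : Wh x y) {v : I27 → F} {c : F} (hv : cr x v = c • x) (htv : tr1 v = 0) :
    zf x y v = v + tf y v • x := by
  have hxv : tf x v = 0 := by
    have := tr1_cr x v
    rw [hv, tr1_smul, h.tx, htv] at this
    linear_combination this
  have h1 := h.crxy v
  rw [hv, cr_smul_right, h.yx, hxv] at h1
  rw [zf, hxv]
  linear_combination (norm := module) h1

theorem finrank_inf_ker_le {W : Submodule F (I27 → F)} (l : (I27 → F) →ₗ[F] F) :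
    finrank F W ≤ finrank F (W ⊓ LinearMap.ker l : Submodule F (I27 → F)) + 1 := by
  have h1 := Submodule.finrank_sup_add_finrank_inf_eq W (LinearMap.ker l)
  have h2 := LinearMap.finrank_range_add_finrank_ker l
  have h3 : finrank F (LinearMap.range l) ≤ 1 := (Submodule.finrank_le _).trans (by rw [finrank_self])
  have h4 : finrank F (W ⊔ LinearMap.ker l : Submodule F (I27 → F)) ≤ finrank F (I27 → F) := Submodule.finrank_le _
  omega

theorem Wh.eq_cr {x y v : I27 → F} (h : Wh x y) (hv : tf x v ≠ 0)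
    (h4 : tf x v • y = cr x (cr y v) + (tr1 (sh y) * tf x v) • x) :
    crB F x ((tf x v)⁻¹ • cr y v + (tr1 (sh y) * (tf x v)⁻¹) • cr x v) = y := by
  have h5 : (tf x v)⁻¹ • (tf x v • y) = y := by rw [smul_smul, inv_mul_cancel₀ hv, one_smul]
  rw [crB_apply, cr_add_right, cr_smul_right, cr_smul_right, h.crx]
  refine Eq.trans ?_ h5
  rw [h4]
  module

/-- **(Z')** : a space `U ∋ x` of dimension at most 7 in `{y ∈ J₀ : x × y ∈ F x}` is fixed pointwise by an element `≠ 1` of
`Z_x` -/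
theorem exists_fix (hF : Full F) {x : I27 → F} (h0 : x ≠ 0) (hx : sh x = 0) (htx : tr1 x = 0) {U : Submodule F (I27 → F)}
    (hxU : x ∈ U) (hU : ∀ y ∈ U, tr1 y = 0 ∧ ∃ c : F, cr x y = c • x) (h7 : finrank F U ≤ 7) :
    ∃ z ∈ Zx x h0 hx htx, z ≠ 1 ∧ ∀ y ∈ U, Jr F z y = y := by
  -- a complement of `x` in `U`
  obtain ⟨U', hU'⟩ := Submodule.exists_isCompl (Submodule.span F {x} : Submodule F (I27 → F))
  set U1 := U ⊓ U' with hU1
  have hsum : ∀ u ∈ U, ∃ c : F, ∃ w ∈ U1, u = c • x + w := by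
    intro u hu
    have : u ∈ Submodule.span F {x} ⊔ U' := by rw [hU'.sup_eq_top]; trivial
    obtain ⟨a, ha, w, hw, rfl⟩ := Submodule.mem_sup.1 this
    obtain ⟨c, rfl⟩ := Submodule.mem_span_singleton.1 ha
    refine ⟨c, w, ⟨?_, hw⟩, rfl⟩
    have := U.sub_mem hu (U.smul_mem c hxU)
    simpa using this
  have hU1d : finrank F U1 ≤ 6 := by
    have h1 : U1 < U := by
      refine lt_of_le_of_ne inf_le_left fun h => ?_
      have h2 : x ∈ U' := (h ▸ hxU : x ∈ U1).2
      have h3 : x ∈ Submodule.span F {x} ⊓ U' := ⟨Submodule.mem_span_singleton_self x, h2⟩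
      rw [hU'.inf_eq_bot] at h3
      exact h0 h3
    have := Submodule.finrank_lt_finrank_of_lt h1
    omega
  -- the vectors `y`
  set Y : Submodule F (I27 → F) := (kr x ⊓ LinearMap.ker (trL F)) ⊓ perp U1 with hY
  have hYd : 10 ≤ finrank F Y := by
    have h1 := finrank_kr_white h0 hx
    have h2 := finrank_inf_ker_le (W := kr x) (trL F)
    have h3 := finrank_perp U1
    have h4 := Submodule.finrank_sup_add_finrank_inf_eq (kr x ⊓ LinearMap.ker (trL F)) (perp U1)
    have h5 : finrank F ((kr x ⊓ LinearMap.ker (trL F)) ⊔ perp U1 : Submodule F (I27 → F)) ≤ 27 := by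
      refine (Submodule.finrank_le _).trans ?_
      rw [finrank_fintype_fun_eq_card]
      decide
    rw [hY]
    omega
  set K : Submodule F (I27 → F) := LinearMap.range (crB F x) ⊓ LinearMap.ker (trL F) with hK
  have hKd : finrank F K ≤ 9 := by
    have h1 := LinearMap.finrank_range_add_finrank_ker (crB F x)
    have h2 : finrank F (LinearMap.ker (crB F x)) = 17 := finrank_kr_white h0 hx
    rw [finrank_fintype_fun_eq_card] at h1
    have h3 : Fintype.card I27 = 27 := by decide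
    have h4 : K < LinearMap.range (crB F x) := by
      refine lt_of_le_of_ne inf_le_left fun h => ?_
      -- a vector with `T(x, v) ≠ 0`
      apply h0
      refine tf_nondeg fun v => ?_
      have h5 : crB F x v ∈ K := by rw [h]; exact LinearMap.mem_range_self _ v
      have h6 : tr1 (cr x v) = 0 := h5.2
      rw [tr1_cr, htx] at h6
      linear_combination -h6
    have := Submodule.finrank_lt_finrank_of_lt h4
    omega
  obtain ⟨y, hyY, hyK⟩ : ∃ y ∈ Y, y ∉ K := by
    by_contra hc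
    push Not at hc
    have := Submodule.finrank_mono (show Y ≤ K from hc)
    omega
  have hty : tr1 y = 0 := hyY.1.2
  have hxy : cr x y = 0 := mem_kr.1 hyY.1.1
  have hW := Wh.of h0 hx htx hty hxy
  obtain ⟨g, hg⟩ := exists_zx hF h0 hW
  refine ⟨g, ⟨y, hty, hxy, hg⟩, fun h1 => ?_, fun u hu => ?_⟩
  · -- `z ≠ 1`
    obtain ⟨v, hv⟩ : ∃ v, tf x v ≠ 0 := by
      by_contra hc
      push Not at hc
      exact h0 (tf_nondeg hc)
    have h2 := hg v
    rw [h1, Jr_one, zf] at h2
    apply hyK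
    refine ⟨?_, hty⟩
    have h4 : tf x v • y = cr x (cr y v) + (tr1 (sh y) * tf x v) • x := by
      linear_combination (norm := module) h2
    have h3 := hW.eq_cr hv h4
    exact ⟨_, h3⟩
  · obtain ⟨c, w, hw, rfl⟩ := hsum u hu
    obtain ⟨htu, d, hd⟩ := hU _ hu
    rw [hg, hW.zf_eq hd htu, tf_add_right, tf_smul_right, tf_comm y x, hW.T, tf_comm y w, (hyY.2 : y ∈ perp U1) w hw]
    module

end field

end Cfsg.Agent.R2.F4P
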